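import Cfsg.Agent.H17.LT.Red

/-!
# S2927, layer L1: in case of at least two components, `C_K(a)` is a 2-group for `1 ≠ a ∈ C_K(N_Q(K))`
-/

set_option autoImplicit false
set_option linter.unusedSectionVars false
open Cfsg Subgroup
open Cfsg.Agent.H229 Cfsg.Agent.H230 Cfsg.Agent.H252.LT
open Cfsg.Agent.SignalizersComponents.Components

universe u

namespace Cfsg.Agent.H17.LT

variable {G : Type u} [Group G] [Finite G] {S : Sylow 2 G} {Q M K : Subgroup G}

theorem isComponent_cj {L : Subgroup G} (hL : IsComponent L) (g : G) : IsComponent (cj g L) :=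
  isComponent_conj g hL

theorem pc_conj (z : ∀ i : Cmp G, i.1) (i : Cmp G) {x : G} (hx : x ∈ i.1) :
    pc G z * x * (pc G z)⁻¹ = (z i : G) * x * (z i : G)⁻¹ := by
  obtain ⟨c, hc, h⟩ := pc_decomp z i
  rw [h]
  have h1 : x * c = c * x := mem_centralizer_iff.1 hc x hx
  calc (z i : G) * c * x * ((z i : G) * c)⁻¹ = (z i : G) * (c * x) * c⁻¹ * (z i : G)⁻¹ := by group
    _ = (z i : G) * (x * c) * c⁻¹ * (z i : G)⁻¹ := by rw [h1]
    _ = (z i : G) * x * (z i : G)⁻¹ := by group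

/-- if `g` and `h` act in the same way on all components then `g = h` -/
theorem eq_of_conj (hc : centralizer (layer G : Set G) = ⊥) {g h : G}
    (H : ∀ i : Cmp G, ∀ x ∈ i.1, g * x * g⁻¹ = h * x * h⁻¹) : g = h := by
  have h1 : h⁻¹ * g ∈ centralizer (layer G : Set G) := by
    apply mem_centralizer_layer
    intro i x hx
    have h2 := H i x hx
    calc x * (h⁻¹ * g) = h⁻¹ * (h * x * h⁻¹) * g := by group
      _ = h⁻¹ * (g * x * g⁻¹) * g := by rw [h2]
      _ = h⁻¹ * g * x := by group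
  rw [hc, mem_bot] at h1
  exact (inv_mul_eq_one.1 h1).symm

/-- the diagonal element of `C(Q)` over `a ∈ C_K(N_Q(K))` -/
theorem Two.exists_diag (t : Two S Q M K) {a : G} (haK : a ∈ K)
    (ha : ∀ q ∈ Q, cj q K = K → q * a = a * q) :
    ∃ d ∈ centralizer (Q : Set G), d ∈ layer G ∧ ∃ c ∈ centralizer (K : Set G), d = a * c := by
  classical
  have hex : ∀ i : Cmp G, ∃ q ∈ Q, cj q K = i.1 := fun i => t.trans i.1 i.2
  choose q hqQ hq using hex
  let z : ∀ i : Cmp G, i.1 := fun i => ⟨q i * a * (q i)⁻¹, by rw [← hq i]; exact conj_mem_cj haK⟩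
  have hz : ∀ i : Cmp G, (z i : G) = q i * a * (q i)⁻¹ := fun i => rfl
  refine ⟨pc G z, ?_, ?_, ?_⟩
  · rw [mem_centralizer_iff]
    intro s hs
    suffices h : s * pc G z * s⁻¹ = pc G z by
      calc s * pc G z = (s * pc G z * s⁻¹) * s := by group
        _ = pc G z * s := by rw [h]
    apply eq_of_conj t.cent
    intro i x hx
    rw [pc_conj z i hx]
    -- `j = i ^ (s⁻¹)`
    let j : Cmp G := ⟨cj s⁻¹ i.1, isComponent_cj i.2 _⟩
    have hxj : s⁻¹ * x * s ∈ j.1 := by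
      have := conj_mem_cj (g := s⁻¹) hx
      rwa [inv_inv] at this
    have h1 := pc_conj z j hxj
    have h2 : (s : G) * z j * s⁻¹ = z i := by
      have h3 : (q i)⁻¹ * s * q j ∈ Q := mul_mem (mul_mem (inv_mem (hqQ i)) hs) (hqQ j)
      have h4 : cj ((q i)⁻¹ * s * q j) K = K := by
        rw [cj_mul, cj_mul, hq j, cj_cj_inv, ← hq i, cj_inv_cj]
      have h5 := ha _ h3 h4
      rw [hz, hz]
      calc s * (q j * a * (q j)⁻¹) * s⁻¹ = q i * ((q i)⁻¹ * s * q j * a) * (q j)⁻¹ * s⁻¹ := by group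
        _ = q i * (a * ((q i)⁻¹ * s * q j)) * (q j)⁻¹ * s⁻¹ := by rw [h5]
        _ = q i * a * (q i)⁻¹ := by group
    calc s * pc G z * s⁻¹ * x * (s * pc G z * s⁻¹)⁻¹ = s * (pc G z * (s⁻¹ * x * s) * (pc G z)⁻¹) * s⁻¹ := by group
      _ = s * ((z j : G) * (s⁻¹ * x * s) * (z j : G)⁻¹) * s⁻¹ := by rw [h1]
      _ = (s * z j * s⁻¹) * x * (s * z j * s⁻¹)⁻¹ := by group
      _ = _ := by rw [h2]
  · rw [← pc_range]; exact ⟨z, rfl⟩
  · obtain ⟨c, hc, h⟩ := pc_decomp z ⟨K, t.comp⟩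
    refine ⟨c, hc, ?_⟩
    rw [h, hz]
    have h1 := ha _ (hqQ ⟨K, t.comp⟩) (hq ⟨K, t.comp⟩)
    rw [h1]
    group

theorem Two.inf_cent (t : Two S Q M K) : K ⊓ centralizer (K : Set G) = ⊥ :=
  component_inf_centralizer t.cent t.comp

/-- **fix**: `C_K(a)` is a 2-group for `1 ≠ a ∈ C_K(N_Q(K))`. -/
theorem Two.fix (t : Two S Q M K) {a : G} (haK : a ∈ K) (ha1 : a ≠ 1)
    (ha : ∀ q ∈ Q, cj q K = K → q * a = a * q) : IsPGroup 2 ↥(K ⊓ centralizer ({a} : Set G) : Subgroup G) := by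
  obtain ⟨d, hdQ, -, c, hc, hd⟩ := t.exists_diag haK ha
  have hd1 : d ≠ 1 := by
    intro h
    apply ha1
    have h1 : a ∈ K ⊓ centralizer (K : Set G) := by
      refine ⟨haK, ?_⟩
      have h2 : a = c⁻¹ := by
        rw [h] at hd
        exact eq_inv_of_mul_eq_one_left hd.symm
      rw [h2]
      exact (centralizer (K : Set G)).inv_mem hc
    rwa [t.inf_cent, mem_bot] at h1
  have hle := cent_le_of t.cx hdQ hd1
  obtain ⟨L, hL, hLK⟩ := t.other
  obtain ⟨q, hq, hqL⟩ := t.trans L hL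
  rintro ⟨x, hxK, hxa⟩
  rw [SetLike.mem_coe] at hxK
  have hxa' : x * a = a * x := mem_centralizer_singleton_iff.1 hxa
  have hxc : x * c = c * x := mem_centralizer_iff.1 hc x hxK
  have hxd : x ∈ centralizer ({d} : Set G) := by
    rw [mem_centralizer_singleton_iff, hd]
    calc x * (a * c) = (x * a) * c := by group
      _ = a * (x * c) := by rw [hxa']; group
      _ = a * c * x := by rw [hxc]; group
  have hxn := hle hxd
  have hy : q * x * q⁻¹ ∈ L := by rw [← hqL]; exact conj_mem_cj hxK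
  have h1 : q * x * q⁻¹ * x⁻¹ ∈ Q := by
    have h2 : x * q⁻¹ * x⁻¹ ∈ Q := (mem_normalizer_iff.1 hxn _).1 (inv_mem hq)
    have e : q * x * q⁻¹ * x⁻¹ = q * (x * q⁻¹ * x⁻¹) := by group
    rw [e]; exact mul_mem hq h2
  have hcomm : Commute (q * x * q⁻¹) x⁻¹ := by
    have h2 := component_le_centralizer_of_ne hL t.comp hLK
    exact ((mem_centralizer_iff.1 (h2 hy) x⁻¹ (inv_mem hxK))).symm
  obtain ⟨k, hk⟩ := t.cx.st.large.pgroup ⟨_, h1⟩
  have hk' : (q * x * q⁻¹ * x⁻¹) ^ 2 ^ k = 1 := congrArg Subtype.val hk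
  refine ⟨k, Subtype.ext ?_⟩
  show x ^ 2 ^ k = 1
  rw [hcomm.mul_pow, inv_pow, mul_inv_eq_one] at hk'
  have h2 : x ^ 2 ^ k ∈ K ⊓ centralizer (K : Set G) := by
    refine ⟨pow_mem hxK _, ?_⟩
    rw [← hk']
    have h3 := component_le_centralizer_of_ne t.comp hL (fun h => hLK h.symm)
    have h4 := component_le_centralizer_of_ne hL t.comp hLK
    exact pow_mem (h4 hy) _
  rwa [t.inf_cent, mem_bot] at h2

end Cfsg.Agent.H17.LT
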