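import Cfsg.Agent.H17.LT.Loc

/-!
# S2927, layer L1: the K-level statement `Fib` and the row criteria for at least two components
-/

set_option autoImplicit false
set_option linter.unusedSectionVars false
open Cfsg Subgroup
open Cfsg.Agent.H229 Cfsg.Agent.H230 Cfsg.Agent.H252.LT
open Cfsg.Agent.SignalizersComponents.Components

universe u

namespace Cfsg.Agent.H17.LT

variable {G : Type u} [Group G] [Finite G] {S : Sylow 2 G} {Q M K : Subgroup G}

/-- the automorphisms of `K` induced by `N_S(K)` -/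
def autS (S : Sylow 2 G) (K : Subgroup G) : Subgroup (MulAut ↥K) :=
  (((S : Subgroup G) ⊓ normalizer (K : Set G)).subgroupOf (normalizer (K : Set G))).map
    (normalizerMonoidHom K)

theorem mem_autS {a : MulAut ↥K} : a ∈ autS S K ↔
    ∃ g ∈ (S : Subgroup G), g ∈ normalizer (K : Set G) ∧ ∀ k : ↥K, ((a k : ↥K) : G) = g * k * g⁻¹ := by
  constructor
  · rintro ⟨g, hg, rfl⟩
    exact ⟨g, hg.1, hg.2, fun k => rfl⟩
  · rintro ⟨g, hg, hgK, h⟩
    refine ⟨⟨g, hgK⟩, ⟨hg, hgK⟩, ?_⟩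
    ext k
    exact (h k).symm

theorem centralizer_sub {z : ↥K} {x : ↥K} :
    x ∈ centralizer ({z} : Set ↥K) ↔ (x : G) ∈ centralizer ({(z : G)} : Set G) := by
  rw [mem_centralizer_singleton_iff, mem_centralizer_singleton_iff, Subtype.ext_iff]
  rfl

/-- **`Two` gives `Fib`.** -/
theorem Two.fib (t : Two S Q M K) : ∃ P : Sylow 2 ↥K, (P : Subgroup ↥K) = ((S : Subgroup G) ⊓ K).subgroupOf K ∧
    Fib P (autS S K) := by
  have : Fact (Nat.Prime 2) := ⟨Nat.prime_two⟩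
  obtain ⟨P, hP⟩ := sylow_comp S t.comp
  have hP' : (P : Subgroup ↥K) = ((S : Subgroup G) ⊓ K).subgroupOf K := by
    rw [← hP, Subgroup.subgroupOf, Subgroup.comap_map_eq_self_of_injective K.subtype_injective]
  have hmP : ∀ x : ↥K, x ∈ (P : Subgroup ↥K) ↔ (x : G) ∈ (S : Subgroup G) := by
    intro x
    rw [hP', mem_subgroupOf]
    exact ⟨fun h => h.1, fun h => ⟨h, x.2⟩⟩
  refine ⟨P, hP', ?_, ?_, ?_, ?_, ?_⟩
  · apply IsPGroup.map
    have h1 : IsPGroup 2 ↥((S : Subgroup G) ⊓ normalizer (K : Set G) : Subgroup G) := isPGroup_mono inf_le_left S.2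
    exact h1.comap_of_injective _ (subtype_injective _)
  · intro s hs
    rw [mem_autS]
    exact ⟨s, (hmP s).1 hs, le_normalizer s.2, fun k => rfl⟩
  · intro a ha s hs
    obtain ⟨g, hg, -, h⟩ := mem_autS.1 ha
    rw [hmP, h]
    exact mul_mem (mul_mem hg ((hmP s).1 hs)) (inv_mem hg)
  · intro z hz hz1 hfix
    have h1 := t.fix (a := (z : G)) z.2 (fun h => hz1 (Subtype.ext h)) (by
      intro q hq hqK
      have hqS := t.cx.st.QS hq
      have hqn : q ∈ normalizer (K : Set G) := mem_norm.2 hqK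
      have h2 : normalizerMonoidHom K ⟨q, hqn⟩ ∈ autS S K :=
        mem_autS.2 ⟨q, hqS, hqn, fun k => rfl⟩
      have h3 : q * (z : G) * q⁻¹ = z := congrArg Subtype.val (hfix _ h2)
      calc q * (z : G) = (q * (z : G) * q⁻¹) * q := by group
        _ = z * q := by rw [h3])
    rintro ⟨x, hx⟩
    obtain ⟨n, hn⟩ := h1 ⟨(x : G), x.2, centralizer_sub.1 hx⟩
    have hn' : (x : G) ^ 2 ^ n = 1 := congrArg Subtype.val hn
    exact ⟨n, Subtype.ext (Subtype.ext hn')⟩
  · obtain ⟨X, hXK, hSX, hn, hc, hX⟩ := t.loc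
    refine ⟨X.subgroupOf K, ?_, ?_, ?_, ?_⟩
    · rw [hP']
      exact fun x hx => hSX hx
    · intro a ha x hx
      obtain ⟨g, hg, hgK, h⟩ := mem_autS.1 ha
      show ((a x : ↥K) : G) ∈ X
      rw [h]
      exact (mem_normalizer_iff.1 (hn ⟨hg, hgK⟩) _).1 hx
    · rw [pCoreOf_subgroupOf hXK]
      intro h
      apply hc
      rw [Subgroup.subgroupOf_eq_bot, disjoint_iff, inf_eq_left.2 ((pCoreOf_le 2 X).trans hXK)] at h
      exact h
    · intro h
      apply hX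
      intro x hx
      have h1 := h (show (⟨x, hXK hx⟩ : ↥K) ∈ X.subgroupOf K from hx)
      rw [mem_norm]
      apply cj_eq_of_le
      intro y hy
      obtain ⟨y', hy', rfl⟩ := hy
      have h2 : (⟨x, hXK hx⟩ : ↥K) * ⟨y', hy'.2⟩ * (⟨x, hXK hx⟩ : ↥K)⁻¹ ∈ (P : Subgroup ↥K) :=
        (mem_normalizer_iff.1 h1 _).1 ((hmP _).2 hy'.1)
      exact ⟨(hmP _).1 h2, mul_mem (mul_mem (hXK hx) hy'.2) (K.inv_mem (hXK hx))⟩

/-- rows which contradict `Fib` -/
theorem deadR_of_fib {R : (K : Type u) → [Group K] → Prop}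
    (h : ∀ {K : Type u} [Group K] [Finite K], IsSimpleGroup K → ¬ IsMulCommutative K →
      ∀ {P : Sylow 2 K} {A : Subgroup (MulAut K)}, Fib P A → R K → False) : DeadR R := by
  intro G _ _ S Q M K t hR
  obtain ⟨P, -, hf⟩ := t.fib
  exact h t.simple t.nab hf hR

section K

variable {K : Type u} [Group K] [Finite K] {P : Sylow 2 K} {A : Subgroup (MulAut K)}

/-- a 2-group of automorphisms leaving invariant a nontrivial 2-subgroup has a fixed involution in it -/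
theorem exists_fixed {A : Subgroup (MulAut K)} (hA : IsPGroup 2 ↥A) {Z : Subgroup K} (hZ : IsPGroup 2 ↥Z) (hZ1 : Z ≠ ⊥)
    (hinv : ∀ a ∈ A, ∀ x ∈ Z, a x ∈ Z) : ∃ z ∈ Z, z ≠ 1 ∧ z ^ 2 = 1 ∧ ∀ a ∈ A, a z = z := by
  have : Fact (Nat.Prime 2) := ⟨Nat.prime_two⟩
  have hinv' : ∀ a ∈ A, ∀ x ∈ Z, a⁻¹ x ∈ Z := fun a ha x hx => hinv _ (inv_mem ha) x hx
  -- the fixed points form a subgroup
  let act : MulAction ↥A ↥Z :=
    { smul := fun a x => ⟨(a : MulAut K) x, hinv a a.2 x x.2⟩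
      one_smul := fun x => Subtype.ext rfl
      mul_smul := fun a b x => Subtype.ext rfl }
  have hsmul : ∀ (a : ↥A) (x : ↥Z), ((a • x : ↥Z) : K) = (a : MulAut K) x := fun a x => rfl
  have hmod := hA.card_modEq_card_fixedPoints (α := ↥Z)
  have h2 : 2 ∣ Nat.card ↥Z := by
    obtain ⟨n, hn⟩ := IsPGroup.iff_card.1 hZ
    rcases Nat.eq_zero_or_pos n with h0 | h0
    · rw [h0, pow_zero, Subgroup.card_eq_one] at hn
      exact absurd hn hZ1
    · rw [hn]; exact dvd_pow_self 2 h0.ne'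
  let F : Subgroup K :=
    { carrier := {x | x ∈ Z ∧ ∀ a ∈ A, a x = x}
      mul_mem' := by
        rintro x y ⟨hx, hx'⟩ ⟨hy, hy'⟩
        exact ⟨mul_mem hx hy, fun a ha => by rw [map_mul, hx' a ha, hy' a ha]⟩
      one_mem' := ⟨one_mem _, fun a _ => map_one a⟩
      inv_mem' := by
        rintro x ⟨hx, hx'⟩
        exact ⟨inv_mem hx, fun a ha => by rw [map_inv, hx' a ha]⟩ }
  have hF : Nat.card ↥F = Nat.card ↥(MulAction.fixedPoints ↥A ↥Z) := by
    refine Nat.card_congr ⟨fun x => ⟨⟨x.1, x.2.1⟩, fun a => Subtype.ext (x.2.2 a a.2)⟩,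
      fun x => ⟨x.1.1, x.1.2, fun a ha => congrArg Subtype.val (x.2 ⟨a, ha⟩)⟩, fun x => rfl, fun x => rfl⟩
  have h3 : 2 ∣ Nat.card ↥F := by
    rw [hF]
    exact (Nat.modEq_zero_iff_dvd.1 (hmod.symm.trans (Nat.modEq_zero_iff_dvd.2 h2)))
  obtain ⟨z, hz⟩ := exists_prime_orderOf_dvd_card' 2 h3
  refine ⟨z, z.2.1, ?_, ?_, z.2.2⟩
  · intro h
    have h6 : z = 1 := Subtype.ext h
    rw [h6, orderOf_one] at hz
    exact absurd hz (by norm_num)
  · have := pow_orderOf_eq_one z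
    rw [hz] at this
    exact congrArg Subtype.val this

/-- an `A`-fixed element is centralized by `P` -/
theorem Fib.le_cent (h : Fib P A) {z : K} (hz : ∀ a ∈ A, a z = z) : (P : Subgroup K) ≤ centralizer ({z} : Set K) := by
  intro s hs
  rw [mem_centralizer_singleton_iff]
  have h1 := hz _ (h.inn s hs)
  rw [MulAut.conj_apply] at h1
  calc s * z = (s * z * s⁻¹) * s := by group
    _ = z * s := by rw [h1]

theorem Fib.index (h : Fib P A) {z : K} (hz : ∀ a ∈ A, a z = z) : ¬ 2 ∣ (centralizer ({z} : Set K)).index := by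
  have : Fact (Nat.Prime 2) := ⟨Nat.prime_two⟩
  intro h2
  exact P.not_dvd_index (h2.trans (index_dvd_of_le (h.le_cent hz)))

/-- an `A`-fixed element of order 2 lies in `P` -/
theorem Fib.mem (h : Fib P A) {z : K} (hz : ∀ a ∈ A, a z = z) (h2 : z ^ 2 = 1) : z ∈ (P : Subgroup K) := by
  have : Fact (Nat.Prime 2) := ⟨Nat.prime_two⟩
  have hc := h.le_cent hz
  have h1 : IsPGroup 2 ↥(zpowers z) := by
    intro ⟨y, k, hk⟩
    refine ⟨1, Subtype.ext ?_⟩
    have : y = z ^ k := hk.symm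
    show y ^ 2 ^ 1 = 1
    rw [this, pow_one, ← zpow_natCast, ← zpow_mul, mul_comm, zpow_mul, zpow_natCast, h2, one_zpow]
  have hn : zpowers z ≤ normalizer ((P : Subgroup K) : Set K) := by
    rw [zpowers_le]
    apply centralizer_le_norm
    rw [mem_centralizer_iff]
    exact fun s hs => mem_centralizer_singleton_iff.1 (hc hs)
  have h3 := isPGroup_sup_of_norm P.2 h1 hn
  have h4 := P.3 h3 le_sup_left
  rw [← h4]
  exact mem_sup_right (mem_zpowers z)

/-- `C_K(z) = P` for an `A`-fixed involution `z` -/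
theorem Fib.cent_eq (h : Fib P A) {z : K} (hz : ∀ a ∈ A, a z = z) (h2 : z ^ 2 = 1) (h1 : z ≠ 1) :
    centralizer ({z} : Set K) = P :=
  P.3 (h.fix z (h.mem hz h2) h1 hz) (h.le_cent hz)

theorem Fib.twoCentral (h : Fib P A) {z : K} (hz : ∀ a ∈ A, a z = z) (h2 : z ^ 2 = 1) (h1 : z ≠ 1) :
    TwoCentral z := ⟨h1, h2, h.index hz⟩

theorem Fib.exists_inv (h : Fib P A) (hs : IsSimpleGroup K) (hna : ¬ IsMulCommutative K) :
    ∃ z : K, z ≠ 1 ∧ z ^ 2 = 1 ∧ ∀ a ∈ A, a z = z := by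
  have : Fact (Nat.Prime 2) := ⟨Nat.prime_two⟩
  have hP : (P : Subgroup K) ≠ ⊥ := P.ne_bot_of_dvd_card (Cx.two_dvd_of_simple hna)
  obtain ⟨z, -, h1, h2, h3⟩ := exists_fixed h.two P.2 hP h.norm
  exact ⟨z, h1, h2, h3⟩

theorem chP_of_isPGroup {L : Subgroup K} (h : IsPGroup 2 ↥L) : ChP 2 L :=
  inf_le_left.trans (H229.le_pCoreOf le_rfl le_normalizer h)

end K

/-- **RowTwo kills.** -/
theorem deadR_rowTwo : DeadR.{u} fun K _ => RowTwo K := by
  refine deadR_of_fib ?_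
  intro K _ _ hs hna P A h hR
  obtain ⟨z, h1, h2, h3⟩ := h.exists_inv hs hna
  exact hR z (h.twoCentral h3 h2 h1) (h.fix z (h.mem h3 h2) h1 h3)

/-- **KP kills.** -/
theorem deadR_KP : DeadR.{u} fun K _ => KP K := by
  refine deadR_of_fib ?_
  intro K _ _ hs hna P A h hR
  have : Fact (Nat.Prime 2) := ⟨Nat.prime_two⟩
  obtain ⟨t, ⟨ht1, ht2, hodd⟩, hinv, hn⟩ := hR
  -- `A` fixes an element of the class of `t`
  let act : MulAction ↥A ↥(MulAction.orbit (ConjAct K) t) :=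
    { smul := fun a x => ⟨(a : MulAut K) x, by
        obtain ⟨g, hg⟩ := x.2
        obtain ⟨k, hk⟩ := isConj_iff.1 (hinv (a : MulAut K)).symm
        refine ⟨ConjAct.toConjAct ((a : MulAut K) (ConjAct.ofConjAct g) * k), ?_⟩
        have hg' : ConjAct.ofConjAct g * t * (ConjAct.ofConjAct g)⁻¹ = x := hg
        show (a : MulAut K) (ConjAct.ofConjAct g) * k * t * ((a : MulAut K) (ConjAct.ofConjAct g) * k)⁻¹ = _
        rw [← hg', map_mul, map_mul, map_inv, ← hk]
        group⟩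
      one_smul := fun x => Subtype.ext rfl
      mul_smul := fun a b x => Subtype.ext rfl }
  have hcard : ¬ 2 ∣ Nat.card ↥(MulAction.orbit (ConjAct K) t) := by
    intro h2
    apply hodd
    have h3 : (MulAction.stabilizer (ConjAct K) t).comap (ConjAct.toConjAct : K ≃* ConjAct K).toMonoidHom =
        centralizer ({t} : Set K) := by
      ext x
      rw [Subgroup.mem_comap, MulAction.mem_stabilizer_iff, mem_centralizer_singleton_iff]
      show x * t * x⁻¹ = t ↔ _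
      rw [mul_inv_eq_iff_eq_mul]
    have h4 : (MulAction.stabilizer (ConjAct K) t).index = (centralizer ({t} : Set K)).index := by
      rw [← h3, Subgroup.index_comap_of_surjective _ (ConjAct.toConjAct : K ≃* ConjAct K).surjective]
    rw [← h4, MulAction.index_stabilizer]
    exact h2
  have hmod := h.two.card_modEq_card_fixedPoints (α := ↥(MulAction.orbit (ConjAct K) t))
  have hfix : (MulAction.fixedPoints ↥A ↥(MulAction.orbit (ConjAct K) t)).Nonempty := by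
    rw [Set.nonempty_iff_ne_empty]
    intro h0
    rw [h0] at hmod
    apply hcard
    rw [← Nat.modEq_zero_iff_dvd]
    simpa using hmod
  obtain ⟨⟨z, g, hg⟩, hz⟩ := hfix
  have hg' : ConjAct.ofConjAct g * t * (ConjAct.ofConjAct g)⁻¹ = z := hg
  have hza : ∀ a ∈ A, a z = z := fun a ha => congrArg Subtype.val (hz ⟨a, ha⟩)
  have hz2 : z ^ 2 = 1 := by
    rw [← hg', conj_pow, ht2]
    group
  have hz1 : z ≠ 1 := by
    intro h1
    apply ht1
    rw [← hg'] at h1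
    exact conj_eq_one_iff.1 h1
  have h4 : IsPGroup 2 ↥(centralizer ({z} : Set K)) := h.fix z (h.mem hza hz2) hz1 hza
  apply hn
  apply chP_of_isPGroup
  have h5 : cj (ConjAct.ofConjAct g) (centralizer ({t} : Set K)) ≤ centralizer ({z} : Set K) := by
    intro x hx
    rw [mem_cj, mem_centralizer_singleton_iff] at hx
    rw [mem_centralizer_singleton_iff, ← hg']
    set k := ConjAct.ofConjAct g
    calc x * (k * t * k⁻¹) = k * (k⁻¹ * x * k * t) * k⁻¹ := by group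
      _ = k * (t * (k⁻¹ * x * k)) * k⁻¹ := by rw [hx]
      _ = k * t * k⁻¹ * x := by group
  have h6 := isPGroup_mono h5 h4
  have h7 := isPGroup_cj (g := (ConjAct.ofConjAct g)⁻¹) h6
  rwa [cj_inv_cj] at h7

theorem isPGroup_zpowers {K : Type*} [Group K] {z : K} (h2 : z ^ 2 = 1) : IsPGroup 2 ↥(zpowers z) := by
  intro ⟨y, k, hk⟩
  refine ⟨1, Subtype.ext ?_⟩
  have : y = z ^ k := hk.symm
  show y ^ 2 ^ 1 = 1
  rw [this, pow_one, ← zpow_natCast, ← zpow_mul, mul_comm, zpow_mul, zpow_natCast, h2, one_zpow]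

/-- **KD kills.** -/
theorem deadR_KD : DeadR.{u} fun K _ => KD K := by
  refine deadR_of_fib ?_
  intro K _ _ hs hna P A h hR
  have : Fact (Nat.Prime 2) := ⟨Nat.prime_two⟩
  obtain ⟨t, D, ht1, ht2, hDt, hnD, hD, hcD⟩ := hR
  obtain ⟨z, hz1, hz2, hz⟩ := h.exists_inv hs hna
  have hzp : IsPGroup 2 ↥(centralizer ({z} : Set K)) := h.fix z (h.mem hz hz2) hz1 hz
  have hcz := h.le_cent hz
  obtain ⟨P0, hP0⟩ := exists_isSylowOf (p := 2) D
  have htC : zpowers t ≤ normalizer (P0 : Set K) := by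
    rw [zpowers_le]
    apply centralizer_le_norm
    rw [mem_centralizer_iff]
    exact fun q hq => mem_centralizer_singleton_iff.1 (hDt (hP0.le hq))
  have hPt : IsPGroup 2 ↥(P0 ⊔ zpowers t : Subgroup K) :=
    isPGroup_sup_of_norm hP0.isPGroup (isPGroup_zpowers ht2) htC
  obtain ⟨P1, hP1⟩ := hPt.exists_le_sylow
  obtain ⟨g, hg⟩ := MulAction.exists_smul_eq K P P1
  have hmem : ∀ y ∈ (P1 : Subgroup K), g⁻¹ * y * g ∈ (P : Subgroup K) := by
    intro y hy
    rw [← hg] at hy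
    obtain ⟨q, hq, rfl⟩ := hy
    show g⁻¹ * (g * q * g⁻¹) * g ∈ _
    have e : g⁻¹ * (g * q * g⁻¹) * g = q := by group
    rw [e]; exact hq
  set w := g * z * g⁻¹ with hw
  have hcomm : ∀ y ∈ (P0 ⊔ zpowers t : Subgroup K), y * w = w * y := by
    intro y hy
    have h1 := mem_centralizer_singleton_iff.1 (hcz (hmem y (hP1 hy)))
    calc y * w = g * (g⁻¹ * y * g * z) * g⁻¹ := by rw [hw]; group
      _ = g * (z * (g⁻¹ * y * g)) * g⁻¹ := by rw [h1]
      _ = w * y := by rw [hw]; group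
  have hwt : w ∈ centralizer ({t} : Set K) := by
    rw [mem_centralizer_singleton_iff]
    exact (hcomm t (mem_sup_right (mem_zpowers t))).symm
  have hwP : w ∈ centralizer (P0 : Set K) := by
    rw [mem_centralizer_iff]
    exact fun q hq => hcomm q (mem_sup_left hq)
  have hwD := hcD P0 hP0 ⟨hwP, hwt⟩
  apply hD
  apply chP_of_isPGroup
  have h5 : cj g⁻¹ D ≤ centralizer ({z} : Set K) := by
    intro x hx
    rw [mem_cj, inv_inv] at hx
    have h1 := mem_centralizer_iff.1 hwD _ hx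
    rw [mem_centralizer_singleton_iff]
    calc x * z = g⁻¹ * (g * x * g⁻¹ * w) * g := by rw [hw]; group
      _ = g⁻¹ * (w * (g * x * g⁻¹)) * g := by rw [h1]
      _ = z * x := by rw [hw]; group
  have h6 := isPGroup_mono h5 hzp
  have h7 := isPGroup_cj (g := g) h6
  rwa [cj_cj_inv] at h7

/-- **KI kills.** -/
theorem deadR_KI : DeadR.{u} fun K _ => KI K := by
  refine deadR_of_fib ?_
  intro K _ _ hs hna P A h hR
  have : Fact (Nat.Prime 2) := ⟨Nat.prime_two⟩
  obtain ⟨X, hPX, hAX, hcore, hX⟩ := h.loc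
  -- `Z = Ω₁ Z(O₂(X))`
  set Z := zOmega 2 (pCoreOf 2 X) with hZ
  have hPs : IsSylowOf 2 (P : Subgroup K) X := isSylowOf_of_sylow P hPX
  have hZc : Z ≤ pCoreOf 2 X := fun x hx => (mem_zOmega.1 hx).1
  have hZp : IsPGroup 2 ↥Z := isPGroup_mono hZc (H229.isPGroup_pCoreOf 2 X)
  have hZP : Z ≤ P := hZc.trans (pCoreOf_le_of_isSylowOf hPs)
  have hXZ : X ≤ normalizer (Z : Set K) := (le_norm_pCoreOf 2 X).trans (norm_le_norm_zOmega 2 _)
  have hZ1 : Z ≠ ⊥ := by
    intro h0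
    have h1 := PLocal.OffenderStep.inf_centralizer_ne_bot (pCoreOf 2 X) (pCoreOf 2 X)
      (H229.isPGroup_pCoreOf 2 X) (H229.isPGroup_pCoreOf 2 X) le_normalizer hcore
    have h2 : IsPGroup 2 ↥(pCoreOf 2 X ⊓ centralizer (pCoreOf 2 X : Set K) : Subgroup K) :=
      isPGroup_mono inf_le_left (H229.isPGroup_pCoreOf 2 X)
    obtain ⟨n, hn⟩ := IsPGroup.iff_card.1 h2
    have h3 : 2 ∣ Nat.card ↥(pCoreOf 2 X ⊓ centralizer (pCoreOf 2 X : Set K) : Subgroup K) := by
      rcases Nat.eq_zero_or_pos n with h0' | h0'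
      · rw [h0', pow_zero, Subgroup.card_eq_one] at hn
        exact absurd hn h1
      · rw [hn]; exact dvd_pow_self 2 h0'.ne'
    obtain ⟨z, hz⟩ := exists_prime_orderOf_dvd_card' 2 h3
    have h4 : (z : K) ∈ Z := by
      rw [hZ, mem_zOmega]
      refine ⟨z.2.1, z.2.2, ?_⟩
      have := pow_orderOf_eq_one z
      rw [hz] at this
      exact congrArg Subtype.val this
    rw [h0, mem_bot] at h4
    have h6 : z = 1 := Subtype.ext h4
    rw [h6, orderOf_one] at hz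
    exact absurd hz (by norm_num)
  -- `Z` is `A`-invariant
  have hXa : ∀ a ∈ A, ∀ x ∈ X, ∃ y ∈ X, a y = x := by
    intro a ha x hx
    exact ⟨a⁻¹ x, hAX _ (inv_mem ha) x hx, MulAut.apply_inv_self _ a x⟩
  have hRa : ∀ a ∈ A, ∀ x ∈ pCoreOf 2 X, a x ∈ pCoreOf 2 X := by
    intro a ha x hx
    have h1 : (pCoreOf 2 X).map (a : MulAut K).toMonoidHom ≤ pCoreOf 2 X := by
      apply H229.le_pCoreOf
      · rintro _ ⟨y, hy, rfl⟩
        exact hAX a ha y (pCoreOf_le 2 X hy)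
      · rw [le_norm_iff]
        rintro x hx _ ⟨y, hy, rfl⟩
        obtain ⟨x', hx', rfl⟩ := hXa a ha x hx
        refine ⟨x' * y * x'⁻¹, (le_norm_iff.1 (le_norm_pCoreOf 2 X)) x' hx' y hy, ?_⟩
        show a (x' * y * x'⁻¹) = a x' * a y * (a x')⁻¹
        rw [map_mul, map_mul, map_inv]
      · exact (H229.isPGroup_pCoreOf 2 X).map _
    exact h1 ⟨x, hx, rfl⟩
  have hZa : ∀ a ∈ A, ∀ x ∈ Z, a x ∈ Z := by
    intro a ha x hx
    rw [hZ, mem_zOmega] at hx ⊢
    obtain ⟨h1, h2, h3⟩ := hx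
    refine ⟨hRa a ha x h1, ?_, by rw [← map_pow, h3, map_one]⟩
    rw [mem_centralizer_iff] at h2 ⊢
    intro y hy
    have h4 := h2 (a⁻¹ y) (hRa _ (inv_mem ha) y hy)
    have h5 := congrArg a h4
    rwa [map_mul, map_mul, MulAut.apply_inv_self] at h5
  obtain ⟨z, hzZ, hz1, hz2, hz⟩ := exists_fixed h.two hZp hZ1 hZa
  have hcz : centralizer ({z} : Set K) = P := h.cent_eq hz hz2 hz1
  have hZe : IsElementaryAbelian 2 Z := ea_zOmega 2 _
  have h1 := hR z (h.twoCentral hz hz2 hz1)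
    (chP_of_isPGroup (h.fix z (h.mem hz hz2) hz1 hz)) Z
    (fun x hx => mem_centralizer_singleton_iff.2 (ea_comm hZe hx hzZ))
    (by rw [hcz]; exact hPX.trans hXZ) hZe hzZ
  apply hX
  rw [← hcz]
  refine le_trans ?_ (le_normalizer)
  intro x hx
  rw [mem_centralizer_singleton_iff]
  have h2 : x * z * x⁻¹ ∈ Z := (mem_normalizer_iff.1 (hXZ hx) z).1 hzZ
  rcases h1 _ h2 with h3 | h3
  · exact absurd (conj_eq_one_iff.1 h3) hz1
  · calc x * z = (x * z * x⁻¹) * x := by group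
      _ = z * x := by rw [h3]

theorem pCoreOf_cj_ne {K : Type*} [Group K] {X : Subgroup K} (g : K) (h : pCoreOf 2 X ≠ ⊥) :
    pCoreOf 2 (cj g X) ≠ ⊥ := by
  rw [pCoreOf_cj]
  exact fun h1 => h (cj_eq_bot.1 h1)

/-- **RowU kills.** -/
theorem deadR_rowU : DeadR.{u} fun K _ => RowU K := by
  refine deadR_of_fib ?_
  intro K _ _ hs hna P A h hR
  have : Fact (Nat.Prime 2) := ⟨Nat.prime_two⟩
  obtain ⟨X, hPX, hAX, hcore, hX⟩ := h.loc
  obtain ⟨P₀, hP₀⟩ := hR
  obtain ⟨g, hg⟩ := MulAction.exists_smul_eq K P P₀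
  have hg' : cj g (P : Subgroup K) = P₀ := congrArg (fun T : Sylow 2 K => (T : Subgroup K)) hg
  have h1 := hP₀ (cj g X) (by rw [← hg']; exact cj_mono hPX) (pCoreOf_cj_ne g hcore)
  apply hX
  rw [← hg', ← cj_normalizer, cj_le_cj] at h1
  exact h1

end Cfsg.Agent.H17.LT
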