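import Cfsg.Agent.H17.LT.Kill

/-!
# S2927, layer L1: `RowW` kills the case of at least two components
-/

set_option autoImplicit false
set_option linter.unusedSectionVars false
open Cfsg Subgroup
open Cfsg.Agent.H229 Cfsg.Agent.H230 Cfsg.Agent.H252.LT
open Cfsg.Agent.SignalizersComponents.Components

universe u

namespace Cfsg.Agent.H17.LT

variable {G : Type u} [Group G] [Finite G] {S : Sylow 2 G} {Q M K : Subgroup G}

/-- `WPair` inside the group `G` -/
structure WG (K P A B : Subgroup G) : Prop where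
  AK : A ≤ K
  BK : B ≤ K
  neA : A ≠ ⊥
  neB : B ≠ ⊥
  PA : P ≤ normalizer (A : Set G)
  PB : P ≤ normalizer (B : Set G)
  coreA : pCoreOf 2 (K ⊓ normalizer (A : Set G)) = A
  coreB : pCoreOf 2 (K ⊓ normalizer (B : Set G)) = B
  aut : ∀ g ∈ normalizer (K : Set G), cj g P = P → (cj g A = A ∧ cj g B = B) ∨ (cj g A = B ∧ cj g B = A)
  loc : ∀ X ≤ K, P ≤ X → pCoreOf 2 X ≠ ⊥ →
    X ≤ normalizer (P : Set G) ∨ X ≤ normalizer (A : Set G) ∨ X ≤ normalizer (B : Set G)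
  inf : K ⊓ normalizer (A : Set G) ⊓ normalizer (B : Set G) ≤ normalizer (P : Set G)
  gen : K ≤ (K ⊓ normalizer (A : Set G)) ⊔ (K ⊓ normalizer (B : Set G))
  inv : ∀ X F : Subgroup G, X ≤ K → P ≤ X → ¬ X ≤ normalizer (P : Set G) →
    (X ≤ normalizer (A : Set G) ∨ X ≤ normalizer (B : Set G)) → F ≤ A ⊓ B → X ≤ normalizer (F : Set G) →
    ∀ f ∈ F, f ≠ 1 → ¬ IsPGroup 2 ↥(K ⊓ centralizer ({f} : Set G) : Subgroup G)

theorem WG.symm {P A B : Subgroup G} (w : WG K P A B) : WG K P B A where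
  AK := w.BK
  BK := w.AK
  neA := w.neB
  neB := w.neA
  PA := w.PB
  PB := w.PA
  coreA := w.coreB
  coreB := w.coreA
  aut g hg h := (w.aut g hg h).imp (fun h => ⟨h.2, h.1⟩) (fun h => ⟨h.2, h.1⟩)
  loc X hX hP hc := (w.loc X hX hP hc).imp id Or.symm
  inf := by
    refine le_trans ?_ w.inf
    rw [inf_assoc, inf_assoc, inf_comm (normalizer (B : Set G))]
  gen := by rw [sup_comm]; exact w.gen
  inv X F hX hP hn h hF hXF := w.inv X F hX hP hn h.symm (by rw [inf_comm]; exact hF) hXF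

/-! ### conversion -/

theorem map_normalizer_sub {H : Subgroup ↥K} :
    (normalizer (H : Set ↥K)).map K.subtype = K ⊓ normalizer ((H.map K.subtype : Subgroup G) : Set G) := by
  ext x
  constructor
  · rintro ⟨y, hy, rfl⟩
    refine ⟨y.2, mem_norm.2 (cj_eq_of_le ?_)⟩
    rintro _ ⟨_, ⟨h, hh, rfl⟩, rfl⟩
    exact ⟨y * h * y⁻¹, (mem_normalizer_iff.1 hy h).1 hh, rfl⟩
  · rintro ⟨hxK, hx⟩
    refine ⟨⟨x, hxK⟩, mem_norm.2 (cj_eq_of_le ?_), rfl⟩
    rintro _ ⟨h, hh, rfl⟩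
    have h1 : x * h * x⁻¹ ∈ H.map K.subtype := (mem_normalizer_iff.1 hx h).1 ⟨h, hh, rfl⟩
    obtain ⟨h', hh', he⟩ := h1
    have : (⟨x, hxK⟩ : ↥K) * h * (⟨x, hxK⟩ : ↥K)⁻¹ = h' := Subtype.ext he.symm
    show (⟨x, hxK⟩ : ↥K) * h * (⟨x, hxK⟩ : ↥K)⁻¹ ∈ H
    rw [this]; exact hh'

theorem map_pCoreOf_sub {p : ℕ} {L : Subgroup ↥K} :
    (pCoreOf p L).map K.subtype = pCoreOf p (L.map K.subtype) := by
  have h1 : L.map K.subtype ≤ K := Subgroup.map_subtype_le _
  have h2 := pCoreOf_subgroupOf (p := p) h1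
  have e1 : (L.map K.subtype).subgroupOf K = L := by
    rw [Subgroup.subgroupOf, Subgroup.comap_map_eq_self_of_injective K.subtype_injective]
  rw [e1] at h2
  rw [h2, Subgroup.subgroupOf_map_subtype, inf_eq_left.2 ((pCoreOf_le p _).trans h1)]

theorem le_normalizer_sub {X H : Subgroup G} (hX : X ≤ K) (hH : H ≤ K) :
    X.subgroupOf K ≤ normalizer ((H.subgroupOf K : Subgroup ↥K) : Set ↥K) ↔ X ≤ normalizer (H : Set G) := by
  constructor
  · intro h x hx
    rw [mem_norm]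
    apply cj_eq_of_le
    rintro _ ⟨y, hy, rfl⟩
    have h1 := h (show (⟨x, hX hx⟩ : ↥K) ∈ X.subgroupOf K from hx)
    exact (mem_normalizer_iff.1 h1 ⟨y, hH hy⟩).1 hy
  · exact le_norm_subgroupOf

theorem wg_of_wpair {P A B : Subgroup ↥K} (w : WPair P A B) :
    WG K (P.map K.subtype) (A.map K.subtype) (B.map K.subtype) := by
  have e : ∀ H : Subgroup ↥K, (H.map K.subtype).subgroupOf K = H := fun H => by
    rw [Subgroup.subgroupOf, Subgroup.comap_map_eq_self_of_injective K.subtype_injective]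
  have hle : ∀ H : Subgroup ↥K, H.map K.subtype ≤ K := fun H => Subgroup.map_subtype_le _
  have hne : ∀ H : Subgroup ↥K, H ≠ ⊥ → H.map K.subtype ≠ ⊥ := fun H h h1 =>
    h ((Subgroup.map_eq_bot_iff_of_injective _ K.subtype_injective).1 h1)
  have hnn : ∀ X : Subgroup G, X ≤ K → ∀ H : Subgroup ↥K,
      (X.subgroupOf K ≤ normalizer (H : Set ↥K) ↔ X ≤ normalizer ((H.map K.subtype : Subgroup G) : Set G)) := by
    intro X hX H
    rw [← le_normalizer_sub hX (hle H), e]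
  have hcj : ∀ (g : G) (hg : g ∈ normalizer (K : Set G)) (H : Subgroup ↥K),
      cj g (H.map K.subtype) = (H.map (normalizerMonoidHom K ⟨g, hg⟩).toMonoidHom).map K.subtype := by
    intro g hg H
    show (H.map K.subtype).map _ = _
    rw [Subgroup.map_map, Subgroup.map_map]
    rfl
  have hinj : ∀ H H' : Subgroup ↥K, H.map K.subtype = H'.map K.subtype → H = H' := fun H H' h => by
    rw [← e H, ← e H', h]
  refine ⟨hle A, hle B, hne A w.neA, hne B w.neB, ?_, ?_, ?_, ?_, ?_, ?_, ?_, ?_, ?_⟩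
  · rw [← hnn _ (hle P), e]; exact w.PA
  · rw [← hnn _ (hle P), e]; exact w.PB
  · rw [← map_normalizer_sub, ← map_pCoreOf_sub, w.coreA]
  · rw [← map_normalizer_sub, ← map_pCoreOf_sub, w.coreB]
  · intro g hg hP
    rw [hcj g hg] at hP
    rcases w.aut _ (hinj _ _ hP) with ⟨h1, h2⟩ | ⟨h1, h2⟩
    · left
      rw [hcj g hg, hcj g hg, h1, h2]
      exact ⟨rfl, rfl⟩
    · right
      rw [hcj g hg, hcj g hg, h1, h2]
      exact ⟨rfl, rfl⟩
  · intro X hX hPX hc
    have h1 : P ≤ X.subgroupOf K := by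
      intro x hx
      exact hPX ⟨x, hx, rfl⟩
    have h2 : pCoreOf 2 (X.subgroupOf K) ≠ ⊥ := by
      rw [pCoreOf_subgroupOf hX]
      intro h
      apply hc
      rw [Subgroup.subgroupOf_eq_bot, disjoint_iff, inf_eq_left.2 ((pCoreOf_le 2 X).trans hX)] at h
      exact h
    have h3 := w.loc _ h1 h2
    rwa [hnn X hX, hnn X hX, hnn X hX] at h3
  · intro x hx
    obtain ⟨⟨hxK, hxA⟩, hxB⟩ := hx
    have h1 : (⟨x, hxK⟩ : ↥K) ∈ normalizer (A : Set ↥K) := by
      have h2 : x ∈ (normalizer (A : Set ↥K)).map K.subtype := by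
        rw [map_normalizer_sub]; exact ⟨hxK, hxA⟩
      obtain ⟨y, hy, hyx⟩ := h2
      have : (⟨x, hxK⟩ : ↥K) = y := Subtype.ext hyx.symm
      rw [this]; exact hy
    have h1' : (⟨x, hxK⟩ : ↥K) ∈ normalizer (B : Set ↥K) := by
      have h2 : x ∈ (normalizer (B : Set ↥K)).map K.subtype := by
        rw [map_normalizer_sub]; exact ⟨hxK, hxB⟩
      obtain ⟨y, hy, hyx⟩ := h2
      have : (⟨x, hxK⟩ : ↥K) = y := Subtype.ext hyx.symm
      rw [this]; exact hy
    have h3 := w.inf ⟨h1, h1'⟩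
    have h4 : x ∈ (normalizer (P : Set ↥K)).map K.subtype := ⟨_, h3, rfl⟩
    rw [map_normalizer_sub] at h4
    exact h4.2
  · rw [← map_normalizer_sub, ← map_normalizer_sub, ← Subgroup.map_sup, w.gen]
    intro x hx
    exact ⟨⟨x, hx⟩, mem_top _, rfl⟩
  · intro X F hX hPX hnP hAB hF hXF f hf hf1
    have hFK : F ≤ K := hF.trans (inf_le_left.trans (hle A))
    have h1 : P ≤ X.subgroupOf K := by
      intro x hx
      exact hPX ⟨x, hx, rfl⟩
    have h2 : ¬ X.subgroupOf K ≤ normalizer (P : Set ↥K) := by rwa [hnn X hX]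
    have h3 : X.subgroupOf K ≤ normalizer (A : Set ↥K) ∨ X.subgroupOf K ≤ normalizer (B : Set ↥K) := by
      rwa [hnn X hX, hnn X hX]
    have h4 : F.subgroupOf K ≤ A ⊓ B := by
      intro x hx
      have h5 := hF hx
      have h6 : x ∈ (A.map K.subtype).subgroupOf K := h5.1
      have h7 : x ∈ (B.map K.subtype).subgroupOf K := h5.2
      rw [e] at h6 h7
      exact ⟨h6, h7⟩
    have h5 := w.inv (X.subgroupOf K) (F.subgroupOf K) h1 h2 h3 h4 ((le_normalizer_sub hX hFK).2 hXF)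
      ⟨f, hFK hf⟩ hf (fun h => hf1 (congrArg Subtype.val h))
    intro h6
    apply h5
    rintro ⟨x, hx⟩
    obtain ⟨n, hn⟩ := h6 ⟨(x : G), x.2, centralizer_sub.1 hx⟩
    have hn' : (x : G) ^ 2 ^ n = 1 := congrArg Subtype.val hn
    exact ⟨n, Subtype.ext (Subtype.ext hn')⟩

/-- conjugate pairs -/
theorem WG.conj_of {P A B : Subgroup G} (w : WG K P A B) {g : G} (hg : g ∈ K) :
    WG K (cj g P) (cj g A) (cj g B) := by
  have hgK : cj g K = K := cj_mem_self hg
  have hgK' : cj g⁻¹ K = K := cj_mem_self (inv_mem hg)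
  have hin : ∀ H : Subgroup G, K ⊓ normalizer (cj g H : Set G) = cj g (K ⊓ normalizer (H : Set G)) := by
    intro H
    rw [cj_inf, hgK, cj_normalizer]
  have hle : ∀ X H : Subgroup G, X ≤ normalizer (cj g H : Set G) ↔ cj g⁻¹ X ≤ normalizer (H : Set G) := by
    intro X H
    rw [← cj_normalizer, le_cj_iff]
  refine ⟨?_, ?_, ?_, ?_, ?_, ?_, ?_, ?_, ?_, ?_, ?_, ?_, ?_⟩
  · rw [cj_le_iff, hgK']; exact w.AK
  · rw [cj_le_iff, hgK']; exact w.BK
  · exact fun h => w.neA (cj_eq_bot.1 h)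
  · exact fun h => w.neB (cj_eq_bot.1 h)
  · rw [hle, cj_inv_cj]; exact w.PA
  · rw [hle, cj_inv_cj]; exact w.PB
  · rw [hin, pCoreOf_cj, w.coreA]
  · rw [hin, pCoreOf_cj, w.coreB]
  · intro x hx hP
    have hxg : g⁻¹ * x * g ∈ normalizer (K : Set G) :=
      mul_mem (mul_mem (inv_mem (le_normalizer hg)) hx) (le_normalizer hg)
    have h1 : ∀ H : Subgroup G, cj x (cj g H) = cj g (cj (g⁻¹ * x * g) H) := by
      intro H
      rw [← cj_mul, ← cj_mul]
      congr 1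
      group
    rw [h1, cj_inj] at hP
    rcases w.aut _ hxg hP with ⟨h2, h3⟩ | ⟨h2, h3⟩
    · left; rw [h1, h1, h2, h3]; exact ⟨rfl, rfl⟩
    · right; rw [h1, h1, h2, h3]; exact ⟨rfl, rfl⟩
  · intro X hX hPX hc
    have h1 : cj g⁻¹ X ≤ K := by rw [cj_le_iff, inv_inv, hgK]; exact hX
    have h2 : P ≤ cj g⁻¹ X := by rw [← cj_le_iff]; exact hPX
    have h3 := w.loc _ h1 h2 (pCoreOf_cj_ne _ hc)
    rwa [← hle, ← hle, ← hle] at h3
  · rw [hin, hle, cj_inf, cj_inv_cj]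
    refine le_trans ?_ w.inf
    refine le_inf inf_le_left (inf_le_right.trans ?_)
    rw [cj_le_iff, inv_inv, cj_normalizer]
  · rw [hin, hin, ← cj_sup]
    nth_rewrite 1 [← hgK]
    exact cj_mono w.gen
  · intro X F hX hPX hnP hAB hF hXF f hf hf1
    have h1 : cj g⁻¹ X ≤ K := by rw [cj_le_iff, inv_inv, hgK]; exact hX
    have h2 : P ≤ cj g⁻¹ X := by rw [← cj_le_iff]; exact hPX
    rw [hle] at hnP
    rw [hle, hle] at hAB
    have h3 : cj g⁻¹ F ≤ A ⊓ B := by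
      rw [cj_le_iff, inv_inv, cj_inf]; exact hF
    have h4 : cj g⁻¹ X ≤ normalizer (cj g⁻¹ F : Set G) := by
      rw [← cj_normalizer]; exact cj_mono hXF
    have h5 : g⁻¹ * f * g ∈ cj g⁻¹ F := by
      have := conj_mem_cj (g := g⁻¹) hf
      rwa [inv_inv] at this
    have h6 : g⁻¹ * f * g ≠ 1 := by
      intro h
      apply hf1
      calc f = g * (g⁻¹ * f * g) * g⁻¹ := by group
        _ = 1 := by rw [h]; group
    have h7 := w.inv _ _ h1 h2 hnP hAB h3 h4 _ h5 h6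
    intro h8
    apply h7
    have h9 : K ⊓ centralizer ({g⁻¹ * f * g} : Set G) ≤ cj g⁻¹ (K ⊓ centralizer ({f} : Set G)) := by
      rintro x ⟨hxK, hx⟩
      rw [mem_cj, inv_inv]
      refine ⟨mul_mem (mul_mem hg hxK) (K.inv_mem hg), ?_⟩
      have hx' := mem_centralizer_singleton_iff.1 hx
      refine mem_centralizer_singleton_iff.2 ?_
      calc g * x * g⁻¹ * f = g * (x * (g⁻¹ * f * g)) * g⁻¹ := by group
        _ = g * (g⁻¹ * f * g * x) * g⁻¹ := by rw [hx']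
        _ = f * (g * x * g⁻¹) := by group
    exact isPGroup_mono h9 (isPGroup_cj h8)

end Cfsg.Agent.H17.LT
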